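import Mathlib

/-!
# S4933, three_lemma: field arithmetic (helper24)

* `apply_ne` : a field automorphism of `3`-power order `≠ 1` moves the elements of order `3 ^ b`, `3 ^ b ∥ q + 1`;
* `exists_cube` : `δ ^ ((q + 1) / 3) = 1` implies `δ = c ^ 3` with `c ^ (q + 1) = 1`;
* `exists_orderOf` : elements of order `m ∣ q + 1`.
-/

set_option autoImplicit false

namespace Cfsg.Agent.H24.HT

universe u

/-- the elements fixed by a field automorphism of order `n` -/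
theorem card_fixed {F : Type u} [Field F] [Finite F] (σ : F ≃+* F) :
    ∃ k : ℕ, Nat.card F = k ^ orderOf σ ∧ ∀ x : F, σ x = x → x ^ k = x := by
  classical
  have := Fintype.ofFinite F
  have hfa : Finite (F ≃+* F) := Finite.of_injective (fun f : F ≃+* F => (f : F → F)) DFunLike.coe_injective
  let H := Subgroup.zpowers σ
  have := Fintype.ofFinite H
  let K := FixedPoints.subfield H F
  have := Fintype.ofFinite K
  refine ⟨Fintype.card K, ?_, fun x hx => ?_⟩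
  · have h1 := Module.card_eq_pow_finrank (K := K) (V := F)
    have h2 := FixedPoints.finrank_eq_card H F
    rw [h2, ← Nat.card_eq_fintype_card (α := H), Nat.card_zpowers] at h1
    rw [Nat.card_eq_fintype_card, h1]
  · have hxK : x ∈ K := by
      rintro ⟨g, hg⟩
      change g x = x
      have h3 : ∀ g : F ≃+* F, g ∈ H → g x = x := by
        intro g hg
        obtain ⟨n, rfl⟩ := Subgroup.mem_zpowers_iff.1 hg
        have h4 : σ ∈ MulAction.stabilizer (F ≃+* F) x := hx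
        exact Subgroup.zpow_mem _ h4 n
      exact h3 g hg
    have h5 := FiniteField.pow_card (⟨x, hxK⟩ : K)
    exact congrArg (fun y : K => (y : F)) h5

theorem pow_pow_eq {F : Type u} [Field F] {x : F} {k : ℕ} (h : x ^ k = x) (j : ℕ) : x ^ k ^ j = x := by
  induction j with
  | zero => rw [pow_zero, pow_one]
  | succ j ih => rw [pow_succ, pow_mul, ih, h]

/-- **a field automorphism of `3`-power order moves the elements of order `3 ^ b`, `3 ^ b ∥ q + 1`** -/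
theorem apply_ne {F : Type u} [Field F] [Fintype F] {q : ℕ} (hF : Fintype.card F = q ^ 2) {b : ℕ} (hb0 : b ≠ 0)
    (hb : 3 ^ b ∣ q + 1) (hb' : ¬ 3 ^ (b + 1) ∣ q + 1) {ρ : F ≃+* F} (hρ : ρ ≠ 1) {s : ℕ} (hs : ρ ^ 3 ^ s = 1)
    {ζ : F} (hζ : orderOf ζ = 3 ^ b) : ρ ζ ≠ ζ := by
  intro hfix
  obtain ⟨k, hk1, hk2⟩ := card_fixed ρ
  have ho : ∃ t, orderOf ρ = 3 ^ (t + 1) := by
    obtain ⟨t, -, ht⟩ := (Nat.dvd_prime_pow Nat.prime_three).1 (orderOf_dvd_of_pow_eq_one hs)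
    rcases t with _ | t
    · rw [pow_zero, orderOf_eq_one_iff] at ht
      exact absurd ht hρ
    · exact ⟨t, ht⟩
  obtain ⟨t, ht⟩ := ho
  have h1 := pow_pow_eq (hk2 ζ hfix) (3 ^ t)
  have hk3 : q ^ 2 = (k ^ 3 ^ t) ^ 3 := by
    rw [← hF, ← Nat.card_eq_fintype_card, hk1, ht, pow_succ 3 t, pow_mul]
  clear hk1
  generalize k ^ 3 ^ t = l at h1 hk3
  have hζ0 : ζ ≠ 0 := by
    rintro rfl
    rw [orderOf_zero] at hζ
    exact absurd hζ.symm (by positivity)
  have hq0 : q ≠ 0 := by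
    rintro rfl
    exact Fintype.card_ne_zero (by rw [hF]; norm_num : Fintype.card F = 0)
  have hl0 : l ≠ 0 := by
    rintro rfl
    rw [zero_pow (by norm_num)] at hk3
    exact hq0 (by simpa using hk3)
  have h2 : ζ ^ (l - 1) = 1 := by
    have h3 : ζ * ζ ^ (l - 1) = ζ * 1 := by
      rw [← pow_succ', Nat.sub_add_cancel (Nat.one_le_iff_ne_zero.2 hl0), h1, mul_one]
    exact mul_left_cancel₀ hζ0 h3
  have h3 : 3 ^ b ∣ l - 1 := by
    rw [← hζ]
    exact orderOf_dvd_of_pow_eq_one h2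
  obtain ⟨r, hr⟩ := h3
  have h4 : l = 3 ^ b * r + 1 := by omega
  obtain ⟨b', rfl⟩ := Nat.exists_eq_add_one_of_ne_zero hb0
  obtain ⟨w, hw⟩ := hb
  have h5 : q = 3 ^ (b' + 1) * w - 1 := by omega
  have hq2 : (q - 1) * (q + 1) = 3 ^ (b' + 2) * (r * (3 ^ (b' + 1) * (3 ^ b' * r ^ 2) + 3 ^ (b' + 1) * r + 1)) := by
    have h6 : (q - 1) * (q + 1) + 1 = q ^ 2 := by
      obtain ⟨q', rfl⟩ := Nat.exists_eq_add_one_of_ne_zero hq0
      simp only [Nat.add_sub_cancel]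
      ring
    have h7 : q ^ 2 = 3 ^ (b' + 2) * (r * (3 ^ (b' + 1) * (3 ^ b' * r ^ 2) + 3 ^ (b' + 1) * r + 1)) + 1 := by
      rw [hk3, h4]
      ring
    omega
  have h8 : 3 ^ (b' + 2) ∣ (q - 1) * (q + 1) := ⟨_, hq2⟩
  have h9 : Nat.Coprime (3 ^ (b' + 2)) (q - 1) := by
    apply Nat.Coprime.pow_left
    rw [Nat.Prime.coprime_iff_not_dvd Nat.prime_three]
    rintro ⟨v, hv⟩
    have h10 : q + 1 = 3 * (3 ^ b' * w) := by rw [hw, pow_succ]; ring
    omega
  exact hb' (h9.dvd_of_dvd_mul_left h8)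

/-- **cubes of norm one elements** -/
theorem exists_cube {F : Type u} [Field F] [Fintype F] {q : ℕ} (hF : Fintype.card F = q ^ 2) (h3 : 3 ∣ q + 1) {δ : F}
    (hδ : δ ^ ((q + 1) / 3) = 1) : ∃ c : F, c ^ 3 = δ ∧ c ^ (q + 1) = 1 := by
  obtain ⟨w, hw⟩ := h3
  rw [hw, Nat.mul_div_cancel_left _ (by norm_num : 0 < 3)] at hδ
  have hw0 : w ≠ 0 := by rintro rfl; omega
  have hδ0 : δ ≠ 0 := by
    rintro rfl
    rw [zero_pow hw0] at hδ
    exact zero_ne_one hδ
  obtain ⟨g, hg⟩ := IsCyclic.exists_generator (α := Fˣ)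
  have hgo : orderOf g = q ^ 2 - 1 := by
    rw [orderOf_eq_card_of_forall_mem_zpowers hg, Nat.card_units, Nat.card_eq_fintype_card, hF]
  obtain ⟨i, hi⟩ := Submonoid.mem_powers_iff _ _ |>.1 ((mem_powers_iff_mem_zpowers).2 (hg (Units.mk0 δ hδ0)))
  have h1 : g ^ (i * w) = 1 := by
    rw [pow_mul, hi]
    apply Units.ext
    rw [Units.val_pow_eq_pow_val, Units.val_mk0, hδ, Units.val_one]
  have h2 := orderOf_dvd_of_pow_eq_one h1
  have hq1 : 1 ≤ q := by omega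
  have h4 : q ^ 2 - 1 = (q - 1) * (3 * w) := by
    rw [← hw]
    obtain ⟨q', rfl⟩ := Nat.exists_eq_add_of_le' hq1
    have : (q' + 1) ^ 2 = q' * (q' + 1 + 1) + 1 := by ring
    rw [this]
    simp
  rw [hgo, h4, ← mul_assoc] at h2
  have h5 : (q - 1) * 3 ∣ i := Nat.dvd_of_mul_dvd_mul_right (Nat.pos_of_ne_zero hw0) h2
  obtain ⟨j, rfl⟩ := h5
  refine ⟨((g ^ ((q - 1) * j) : Fˣ) : F), ?_, ?_⟩
  · rw [← Units.val_pow_eq_pow_val, ← pow_mul, mul_assoc, mul_comm j 3, ← mul_assoc, hi, Units.val_mk0]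
  · rw [← Units.val_pow_eq_pow_val, ← pow_mul, hw]
    have h6 : (q - 1) * j * (3 * w) = orderOf g * j := by rw [hgo, h4]; ring
    rw [h6, pow_mul, pow_orderOf_eq_one, one_pow, Units.val_one]

/-- elements of order `m ∣ q + 1` -/
theorem exists_orderOf {F : Type u} [Field F] [Fintype F] {q m : ℕ} (hF : Fintype.card F = q ^ 2) (hm : m ∣ q + 1) :
    ∃ ζ : F, orderOf ζ = m := by
  obtain ⟨g, hg⟩ := IsCyclic.exists_generator (α := Fˣ)
  have hgo : orderOf g = q ^ 2 - 1 := by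
    rw [orderOf_eq_card_of_forall_mem_zpowers hg, Nat.card_units, Nat.card_eq_fintype_card, hF]
  have hq1 : 1 ≤ q := by
    rcases Nat.eq_zero_or_pos q with rfl | h
    · exact absurd hF (by rw [zero_pow (by norm_num)]; exact Fintype.card_ne_zero)
    · exact h
  have h4 : q ^ 2 - 1 = (q - 1) * (q + 1) := by
    obtain ⟨q', rfl⟩ := Nat.exists_eq_add_of_le' hq1
    have : (q' + 1) ^ 2 = q' * (q' + 1 + 1) + 1 := by ring
    rw [this]
    simp
  have h5 : m ∣ orderOf g := by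
    rw [hgo, h4]
    exact hm.mul_left _
  have h6 : orderOf g ≠ 0 := (orderOf_pos g).ne'
  obtain ⟨r, hr⟩ := h5
  have hr0 : r ≠ 0 := by rintro rfl; exact h6 (by rw [hr, mul_zero])
  refine ⟨((g ^ r : Fˣ) : F), ?_⟩
  rw [orderOf_units, orderOf_pow_of_dvd hr0 (Dvd.intro_left _ hr.symm), hr, Nat.mul_div_cancel _ (Nat.pos_of_ne_zero hr0)]

/-- cube roots of unity -/
theorem eq_or_of_cube {F : Type u} [Field F] {ω x : F} (hω : ω ^ 3 = 1) (hω1 : ω ≠ 1) (hx : x ^ 3 = 1) :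
    x = 1 ∨ x = ω ∨ x = ω ^ 2 := by
  have h1 : 1 + ω + ω ^ 2 = 0 := by
    have h2 : (ω - 1) * (1 + ω + ω ^ 2) = 0 := by linear_combination hω
    exact (mul_eq_zero.1 h2).resolve_left (sub_ne_zero.2 hω1)
  have h3 : (x - 1) * ((x - ω) * (x - ω ^ 2)) = 0 := by
    linear_combination hx - (x - 1) * x * h1 + (x - 1) * hω
  rcases mul_eq_zero.1 h3 with h4 | h4
  · exact Or.inl (sub_eq_zero.1 h4)
  · rcases mul_eq_zero.1 h4 with h5 | h5
    · exact Or.inr (Or.inl (sub_eq_zero.1 h5))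
    · exact Or.inr (Or.inr (sub_eq_zero.1 h5))

end Cfsg.Agent.H24.HT
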