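import Cfsg.Agent.H740.Cyc.PSUAut

/-!
# S4933, three_lemma: monomial automorphisms of `PSU_3(q)` (helper24)

`tm hF k d τ`, the automorphism of `PSU 3 F q` given by the monomial matrix with the entries `d i` at `(i, i + k)`
and the field automorphism `τ`; `tm_mul`, `tm_eq`.
-/

set_option autoImplicit false

namespace Cfsg.Agent.H24.HT

open Cfsg Cfsg.Agent.LieClassical.HermBasic Cfsg.Agent.LieClassical.HermSiegel
  Cfsg.Agent.LieClassical.HermGen Cfsg.Agent.LieClassical.SUBasic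
  Cfsg.Agent.ClassicalGeometry.UnitAutBasic Cfsg.Agent.LieClassical.FieldTransfer
  Cfsg.Agent.ClassicalGeometry.PSUAutCount Matrix Cfsg.Agent.H740.Cyc

universe u

section Mat

variable {F : Type u} [Field F] {q : ℕ}

/-- monomial matrices of cyclic type -/
def mon (k : Fin 3) (d : Fin 3 → F) : Matrix (Fin 3) (Fin 3) F := Matrix.of fun i j => if j = i + k then d i else 0

theorem mon_apply (k : Fin 3) (d : Fin 3 → F) (i j : Fin 3) : mon k d i j = if j = i + k then d i else 0 := rfl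

theorem mon_mulVec (k : Fin 3) (d v : Fin 3 → F) (i : Fin 3) : (mon k d *ᵥ v) i = d i * v (i + k) := by
  simp only [Matrix.mulVec, dotProduct, mon_apply]
  rw [Finset.sum_eq_single (i + k)]
  · rw [if_pos rfl]
  · intro b _ hb
    rw [if_neg hb, zero_mul]
  · simp

theorem mon_mul (k l : Fin 3) (d e : Fin 3 → F) : mon k d * mon l e = mon (k + l) fun i => d i * e (i + k) := by
  ext i j
  rw [Matrix.mul_apply, Finset.sum_eq_single (i + k)]
  · simp only [mon_apply, if_pos, ← add_assoc, mul_ite, mul_zero]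
  · intro b _ hb
    rw [mon_apply, if_neg hb, zero_mul]
  · simp

theorem mon_zero_one : mon 0 (fun _ => (1 : F)) = 1 := by
  ext i j
  rw [mon_apply, add_zero, Matrix.one_apply]
  simp only [eq_comm]

theorem mon_map (ρ : F ≃+* F) (k : Fin 3) (d : Fin 3 → F) : (mon k d).map ρ = mon k fun i => ρ (d i) := by
  ext i j
  rw [Matrix.map_apply, mon_apply, mon_apply]
  split_ifs
  · rfl
  · exact map_zero ρ

theorem det_mon_zero (d : Fin 3 → F) : (mon 0 d).det = d 0 * d 1 * d 2 := by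
  have h : mon 0 d = Matrix.diagonal d := by
    ext i j
    rw [mon_apply, add_zero, Matrix.diagonal_apply]
    simp only [eq_comm]
  rw [h, Matrix.det_diagonal, Fin.prod_univ_three]

theorem det_mon_one (k : Fin 3) : (mon k (fun _ => (1 : F))).det = 1 := by
  rw [Matrix.det_fin_three]
  simp only [mon_apply]
  fin_cases k <;> simp [Fin.ext_iff, Fin.add_def]

theorem herm_mon (k : Fin 3) (d : Fin 3 → F) (hd : ∀ i, d i ^ (q + 1) = 1) (v w : Fin 3 → F) :
    hermForm 3 F q (mon k d *ᵥ v) (mon k d *ᵥ w) = hermForm 3 F q v w := by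
  unfold hermForm
  rw [← Equiv.sum_comp (Equiv.addRight k) fun i => v i * w i ^ q]
  refine Finset.sum_congr rfl fun i _ => ?_
  rw [mon_mulVec, mon_mulVec, mul_pow, Equiv.coe_addRight]
  calc d i * v (i + k) * (d i ^ q * w (i + k) ^ q) = d i ^ (q + 1) * (v (i + k) * w (i + k) ^ q) := by ring
    _ = _ := by rw [hd, one_mul]

end Mat

section Aut

variable {F : Type u} [Field F] [Fintype F] {q : ℕ}

/-- the norm one elements -/
abbrev U (F : Type u) [Field F] (q : ℕ) := ↥(rootsOfUnity (q + 1) F)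

omit [Fintype F] in
theorem U_pow (x : U F q) : ((x : Fˣ) : F) ^ (q + 1) = 1 := by
  have h := (mem_rootsOfUnity (q + 1) (x : Fˣ)).1 x.2
  rw [← Units.val_pow_eq_pow_val, h, Units.val_one]

omit [Fintype F] in
theorem U_ext {x y : U F q} (h : ((x : Fˣ) : F) = (y : Fˣ)) : x = y := Subtype.ext (Units.ext h)

/-- the action of the field automorphisms -/
def tu (τ : F ≃+* F) : U F q →* U F q where
  toFun x := ⟨Units.map (τ : F →* F) x, by
    rw [mem_rootsOfUnity, ← map_pow, (mem_rootsOfUnity (q + 1) (x : Fˣ)).1 x.2, map_one]⟩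
  map_one' := Subtype.ext (map_one _)
  map_mul' x y := Subtype.ext (map_mul _ _ _)

omit [Fintype F] in
theorem coe_tu (τ : F ≃+* F) (x : U F q) : ((tu τ x : Fˣ) : F) = τ ((x : Fˣ) : F) := rfl

omit [Fintype F] in
theorem tu_one (x : U F q) : tu 1 x = x := U_ext rfl

/-- monomial elements of `GU_3(q)` -/
noncomputable def mn (hF : Fintype.card F = q ^ 2) (k : Fin 3) (d : Fin 3 → U F q) : Cfsg.GU 3 F q :=
  LieClassical.GUOrder.mkGU hF (mon k fun i => ((d i : Fˣ) : F)) (herm_mon k _ fun i => U_pow (d i))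

theorem gm_mn (hF : Fintype.card F = q ^ 2) (k : Fin 3) (d : Fin 3 → U F q) :
    gm (mn hF k d) = mon k fun i => ((d i : Fˣ) : F) := rfl

/-- monomial automorphisms -/
noncomputable def tm (hF : Fintype.card F = q ^ 2) (k : Fin 3) (d : Fin 3 → U F q) (τ : F ≃+* F) :
    MulAut (PSU 3 F q) := toAut (mn hF k d) τ

theorem tm_mul (hF : Fintype.card F = q ^ 2) (k l : Fin 3) (d e : Fin 3 → U F q) (τ σ : F ≃+* F) :
    tm hF k d τ * tm hF l e σ = tm hF (k + l) (fun i => d i * tu τ (e (i + k))) (τ * σ) := by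
  obtain ⟨C, hC1, hC2⟩ := exists_comp hF (mn hF k d) (mn hF l e) τ σ
  unfold tm
  rw [← hC2]
  congr 1
  apply gm_inj
  rw [hC1, gm_mn, gm_mn, gm_mn, mon_map, mon_mul]
  congr 1

theorem tm_one (hF : Fintype.card F = q ^ 2) : tm hF 0 1 1 = 1 := by
  have h : mn hF 0 1 = 1 := gm_inj (by
    rw [gm_mn, gm_one, ← mon_zero_one]
    rfl)
  unfold tm
  rw [h, toAut_one_one]

/-- **the conjugation formula** -/
theorem tm_conj (hF : Fintype.card F = q ^ 2) (k : Fin 3) (d e : Fin 3 → U F q) (τ : F ≃+* F) :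
    tm hF k d τ * tm hF 0 e 1 * (tm hF k d τ)⁻¹ = tm hF 0 (fun i => tu τ (e (i + k))) 1 := by
  rw [mul_inv_eq_iff_eq_mul, tm_mul, tm_mul, zero_add, add_zero, mul_one, one_mul]
  congr 1
  funext i
  rw [tu_one, add_zero, mul_comm]

/-- the diagonal automorphisms -/
noncomputable def dg (hF : Fintype.card F = q ^ 2) : (Fin 3 → U F q) →* MulAut (PSU 3 F q) where
  toFun d := tm hF 0 d 1
  map_one' := tm_one hF
  map_mul' d e := by
    rw [tm_mul, zero_add, mul_one]
    congr 1
    funext i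
    rw [tu_one, add_zero]
    rfl

theorem dg_apply (hF : Fintype.card F = q ^ 2) (d : Fin 3 → U F q) : dg hF d = tm hF 0 d 1 := rfl

theorem div_eq_of_dg (hF : Fintype.card F = q ^ 2) {d e : Fin 3 → U F q} (h : dg hF d = dg hF e) :
    d 0 / d 1 = e 0 / e 1 := by
  obtain ⟨-, c, hc, h1⟩ := eq_of_toAut_eq hF le_rfl h
  rw [gm_mn, gm_mn] at h1
  have h2 : ∀ i, ((e i : Fˣ) : F) = c * ((d i : Fˣ) : F) := by
    intro i
    have h3 := congrFun (congrFun h1 i) i
    rwa [Matrix.smul_apply, mon_apply, mon_apply, if_pos (add_zero i).symm, if_pos (add_zero i).symm] at h3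
  rw [div_eq_div_iff_mul_eq_mul]
  apply U_ext
  change ((d 0 : Fˣ) : F) * ((e 1 : Fˣ) : F) = ((e 0 : Fˣ) : F) * ((d 1 : Fˣ) : F)
  rw [h2, h2]
  ring

end Aut

end Cfsg.Agent.H24.HT
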